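import Cfsg.Agent.Forms.RootGroup

/-!
Siegel maps and Weyl elements attached to hyperbolic pairs.
-/

set_option autoImplicit false

open QuadraticMap

namespace CfsgLib.OrthTwoGen

open CfsgLib.Forms

variable {F V : Type*} [Field F] [AddCommGroup V] [Module F V] {Q : QuadraticForm F V}

open Classical in
/-- the Siegel map, the identity outside its domain -/
noncomputable def sg (Q : QuadraticForm F V) (d a : V) : V ≃ₗ[F] V :=
  if h : Q d = 0 ∧ polar Q a d = 0 then siegel Q d a h.1 h.2 else 1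

theorem sg_eq {d a : V} (hd : Q d = 0) (ha : polar Q a d = 0) :
    sg Q d a = siegel Q d a hd ha := dif_pos ⟨hd, ha⟩

theorem sg_apply {d a : V} (hd : Q d = 0) (ha : polar Q a d = 0) (v : V) :
    sg Q d a v = v + (polar Q v a - Q a * polar Q v d) • d - polar Q v d • a := by
  rw [sg_eq hd ha, siegel_apply]

theorem sg_fix {d a v : V} (hd : Q d = 0) (ha : polar Q a d = 0) (h1 : polar Q v d = 0)
    (h2 : polar Q v a = 0) : sg Q d a v = v := by
  rw [sg_apply hd ha, h1, h2]; simp

theorem sg_mem_isom (d a : V) : sg Q d a ∈ isom Q := by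
  by_cases h : Q d = 0 ∧ polar Q a d = 0
  · rw [sg_eq h.1 h.2]; exact siegel_mem_isom h.1 h.2
  · rw [sg, dif_neg h]; exact one_mem _

theorem sg_mem_root [Finite F] [FiniteDimensional F V] (hQ : (polarBilin Q).Nondegenerate)
    (hn : 5 ≤ Module.finrank F V) (d a : V) : sg Q d a ∈ rootGroup Q := by
  by_cases h : Q d = 0 ∧ polar Q a d = 0
  · rw [sg_eq h.1 h.2]; exact siegel_mem_rootGroup hQ hn h.1 h.2
  · rw [sg, dif_neg h]; exact one_mem _

theorem sg_mul {d a b : V} (hd : Q d = 0) (ha : polar Q a d = 0) (hb : polar Q b d = 0) :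
    sg Q d a * sg Q d b = sg Q d (a + b) := by
  rw [sg_eq hd ha, sg_eq hd hb, sg_eq hd (by rw [polar_add_left, ha, hb, add_zero]), siegel_mul]

theorem sg_zero {d : V} (hd : Q d = 0) : sg Q d 0 = 1 :=
  LinearEquiv.ext fun v => by rw [sg_apply hd (by simp)]; simp

theorem sg_inv {d a : V} (hd : Q d = 0) (ha : polar Q a d = 0) : (sg Q d a)⁻¹ = sg Q d (-a) :=
  inv_eq_of_mul_eq_one_right (by
    rw [sg_mul hd ha (by rw [polar_neg_left, ha, neg_zero]), add_neg_cancel, sg_zero hd])

theorem sg_pow {d a : V} (hd : Q d = 0) (ha : polar Q a d = 0) (j : ℕ) :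
    sg Q d a ^ j = sg Q d ((j : F) • a) := by
  induction j with
  | zero => rw [pow_zero, Nat.cast_zero, zero_smul, sg_zero hd]
  | succ j ih =>
    rw [pow_succ, ih, sg_mul hd (by rw [polar_smul_left, ha, smul_zero]) ha, Nat.cast_succ,
      add_smul, one_smul]

theorem sg_smul {d a : V} (hd : Q d = 0) (ha : polar Q a d = 0) (c : F) :
    sg Q (c • d) a = sg Q d (c • a) := by
  refine LinearEquiv.ext fun v => ?_
  rw [sg_apply (by rw [QuadraticMap.map_smul, hd, smul_zero])
    (by rw [polar_smul_right, ha, smul_zero]), sg_apply hd (by rw [polar_smul_left, ha, smul_zero]),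
    polar_smul_right, polar_smul_right, QuadraticMap.map_smul]
  simp only [smul_eq_mul]
  module

theorem sg_self {d : V} (hd : Q d = 0) (t : F) : sg Q d (t • d) = 1 := by
  refine LinearEquiv.ext fun v => ?_
  rw [sg_apply hd (by rw [polar_smul_left, polar_self, hd]; simp), QuadraticMap.map_smul, hd,
    polar_smul_right]
  simp [smul_smul, mul_comm]

theorem sg_conj {A : V ≃ₗ[F] V} (hA : A ∈ isom Q) {d a : V} (hd : Q d = 0) (ha : polar Q a d = 0) :
    A * sg Q d a * A⁻¹ = sg Q (A d) (A a) := by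
  refine LinearEquiv.ext fun v => ?_
  show A (sg Q d a (A.symm v)) = _
  rw [sg_apply hd ha, sg_apply ((hA d).trans hd) ((isom_polar hA a d).trans ha)]
  conv_rhs => rw [← A.apply_symm_apply v, isom_polar hA, isom_polar hA, hA a]
  simp only [map_add, map_sub, map_smul, A.apply_symm_apply]

/-- two orthogonal hyperbolic pairs -/
structure TwoPairs (Q : QuadraticForm F V) (e f e' f' : V) : Prop where
  qe : Q e = 0
  qf : Q f = 0
  qe' : Q e' = 0
  qf' : Q f' = 0
  ef : polar Q e f = 1
  ef' : polar Q e' f' = 1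
  ee : polar Q e e' = 0
  eF : polar Q e f' = 0
  fe : polar Q f e' = 0
  ff : polar Q f f' = 0

variable {e f e' f' : V}

theorem TwoPairs.relabel (h : TwoPairs Q e f e' f') : TwoPairs Q e f f' e' :=
  ⟨h.qe, h.qf, h.qf', h.qe', h.ef, by rw [polar_comm, h.ef'], h.eF, h.ee, h.ff, h.fe⟩

/-- the root element -/
noncomputable def sigma (Q : QuadraticForm F V) (e f' : V) (t : F) : V ≃ₗ[F] V := sg Q e (t • f')

theorem TwoPairs.sigma_dom (h : TwoPairs Q e f e' f') (t : F) : polar Q (t • f') e = 0 := by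
  rw [polar_smul_left, polar_comm, h.eF, smul_zero]

theorem TwoPairs.sigma_e (h : TwoPairs Q e f e' f') (t : F) : sigma Q e f' t e = e :=
  sg_fix h.qe (h.sigma_dom t) (by rw [polar_self, h.qe]; simp)
    (by rw [polar_smul_right, h.eF, smul_zero])

theorem TwoPairs.sigma_e' (h : TwoPairs Q e f e' f') (t : F) :
    sigma Q e f' t e' = e' + t • e := by
  rw [sigma, sg_apply h.qe (h.sigma_dom t), polar_smul_right, h.ef', QuadraticMap.map_smul, h.qf',
    polar_comm Q e' e, h.ee]
  simp

theorem TwoPairs.sigma_f (h : TwoPairs Q e f e' f') (t : F) :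
    sigma Q e f' t f = f - t • f' := by
  rw [sigma, sg_apply h.qe (h.sigma_dom t), polar_smul_right, h.ff, QuadraticMap.map_smul, h.qf',
    polar_comm Q f e, h.ef]
  simp

theorem TwoPairs.sigma_f' (h : TwoPairs Q e f e' f') (t : F) : sigma Q e f' t f' = f' :=
  sg_fix h.qe (h.sigma_dom t) (by rw [polar_comm, h.eF])
    (by rw [polar_smul_right, polar_self, h.qf']; simp)

theorem TwoPairs.symm (h : TwoPairs Q e f e' f') : TwoPairs Q e' f' e f :=
  ⟨h.qe', h.qf', h.qe, h.qf, h.ef', h.ef, by rw [polar_comm, h.ee], by rw [polar_comm, h.fe],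
    by rw [polar_comm, h.eF], by rw [polar_comm, h.ff]⟩

/-- the Weyl element -/
noncomputable def nEl (Q : QuadraticForm F V) (e f e' f' : V) (t : F) : V ≃ₗ[F] V :=
  sigma Q e f' t * sigma Q e' f (-t⁻¹) * sigma Q e f' t

theorem TwoPairs.n_e (h : TwoPairs Q e f e' f') {t : F} (ht : t ≠ 0) :
    nEl Q e f e' f' t e = -t⁻¹ • e' := by
  simp only [nEl, LinearEquiv.mul_apply, h.sigma_e, h.symm.sigma_e', map_add, map_smul, h.sigma_e',
    smul_add, smul_smul]
  match_scalars <;> (field_simp; try ring)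

theorem TwoPairs.n_e' (h : TwoPairs Q e f e' f') {t : F} (ht : t ≠ 0) :
    nEl Q e f e' f' t e' = t • e := by
  simp only [nEl, LinearEquiv.mul_apply, h.sigma_e, h.sigma_e', map_add, map_smul, h.symm.sigma_e,
    h.symm.sigma_e', smul_add, smul_smul]
  match_scalars <;> (field_simp; try ring)

theorem TwoPairs.n_f (h : TwoPairs Q e f e' f') {t : F} (ht : t ≠ 0) :
    nEl Q e f e' f' t f = -t • f' := by
  simp only [nEl, LinearEquiv.mul_apply, h.sigma_f, map_sub, map_smul, h.symm.sigma_f',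
    h.symm.sigma_f, h.sigma_f', smul_sub, smul_smul]
  match_scalars <;> (field_simp; try ring)

theorem TwoPairs.n_f' (h : TwoPairs Q e f e' f') {t : F} (ht : t ≠ 0) :
    nEl Q e f e' f' t f' = t⁻¹ • f := by
  simp only [nEl, LinearEquiv.mul_apply, h.sigma_f', h.symm.sigma_f, map_sub, map_smul, h.sigma_f,
    smul_sub, smul_smul]
  match_scalars <;> (field_simp; try ring)

theorem TwoPairs.sigma_fix (h : TwoPairs Q e f e' f') (t : F) {v : V} (h1 : polar Q v e = 0)
    (h2 : polar Q v f' = 0) : sigma Q e f' t v = v :=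
  sg_fix h.qe (h.sigma_dom t) h1 (by rw [polar_smul_right, h2, smul_zero])

theorem TwoPairs.n_fix (h : TwoPairs Q e f e' f') (t : F) {v : V} (h1 : polar Q v e = 0)
    (h2 : polar Q v f = 0) (h3 : polar Q v e' = 0) (h4 : polar Q v f' = 0) :
    nEl Q e f e' f' t v = v := by
  simp only [nEl, LinearEquiv.mul_apply, h.sigma_fix t h1 h4, h.symm.sigma_fix _ h3 h2]

theorem nEl_mem_isom (e f e' f' : V) (t : F) : nEl Q e f e' f' t ∈ isom Q :=
  mul_mem (mul_mem (sg_mem_isom _ _) (sg_mem_isom _ _)) (sg_mem_isom _ _)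

theorem nEl_mem_root [Finite F] [FiniteDimensional F V] (hQ : (polarBilin Q).Nondegenerate)
    (hn : 5 ≤ Module.finrank F V) (e f e' f' : V) (t : F) : nEl Q e f e' f' t ∈ rootGroup Q :=
  mul_mem (mul_mem (sg_mem_root hQ hn _ _) (sg_mem_root hQ hn _ _)) (sg_mem_root hQ hn _ _)

/-- the torus element -/
noncomputable def tEl (Q : QuadraticForm F V) (e f e' f' : V) (t : F) : V ≃ₗ[F] V :=
  nEl Q e f e' f' t * nEl Q e f e' f' (-1)

theorem TwoPairs.t_e (h : TwoPairs Q e f e' f') {t : F} (ht : t ≠ 0) :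
    tEl Q e f e' f' t e = t • e := by
  rw [tEl, LinearEquiv.mul_apply, h.n_e (by simp), map_smul, h.n_e' ht]
  norm_num

theorem TwoPairs.t_e' (h : TwoPairs Q e f e' f') {t : F} (ht : t ≠ 0) :
    tEl Q e f e' f' t e' = t⁻¹ • e' := by
  rw [tEl, LinearEquiv.mul_apply, h.n_e' (by simp), map_smul, h.n_e ht]
  simp

theorem TwoPairs.t_f (h : TwoPairs Q e f e' f') {t : F} (ht : t ≠ 0) :
    tEl Q e f e' f' t f = t⁻¹ • f := by
  rw [tEl, LinearEquiv.mul_apply, h.n_f (by simp), map_smul, h.n_f' ht]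
  simp

theorem TwoPairs.t_f' (h : TwoPairs Q e f e' f') {t : F} (ht : t ≠ 0) :
    tEl Q e f e' f' t f' = t • f' := by
  rw [tEl, LinearEquiv.mul_apply, h.n_f' (by simp), map_smul, h.n_f ht]
  norm_num

theorem TwoPairs.t_fix (h : TwoPairs Q e f e' f') (t : F) {v : V} (h1 : polar Q v e = 0)
    (h2 : polar Q v f = 0) (h3 : polar Q v e' = 0) (h4 : polar Q v f' = 0) :
    tEl Q e f e' f' t v = v := by
  rw [tEl, LinearEquiv.mul_apply, h.n_fix _ h1 h2 h3 h4, h.n_fix _ h1 h2 h3 h4]

/-- the short Weyl element -/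
noncomputable def nzEl (Q : QuadraticForm F V) (e f z : V) : V ≃ₗ[F] V :=
  sg Q e z * sg Q f ((Q z)⁻¹ • z) * sg Q e z

variable {z : V}

section Short

variable (he : Q e = 0) (hf : Q f = 0) (hef : polar Q e f = 1) (hze : polar Q z e = 0)
  (hzf : polar Q z f = 0) (hz : Q z ≠ 0)

include he hze in
theorem s1_e : sg Q e z e = e :=
  sg_fix he hze (by rw [polar_self, he]; simp) (by rw [polar_comm, hze])

include he hze in
theorem s1_z : sg Q e z z = z + (2 * Q z) • e := by
  rw [sg_apply he hze, polar_self, hze]; simp [two_mul, two_smul]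

include he hef hze hzf in
theorem s1_f : sg Q e z f = f - Q z • e - z := by
  rw [sg_apply he hze, polar_comm Q f z, hzf, polar_comm Q f e, hef]; module

include he hze in
theorem s1_perp {u : V} (hue : polar Q u e = 0) : sg Q e z u = u + polar Q u z • e := by
  rw [sg_apply he hze, hue]; simp

include hzf in
theorem s2_dom : polar Q ((Q z)⁻¹ • z) f = 0 := by rw [polar_smul_left, hzf, smul_zero]

include hf hef hze hzf hz in
theorem s2_e : sg Q f ((Q z)⁻¹ • z) e = e - (Q z)⁻¹ • f - (Q z)⁻¹ • z := by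
  rw [sg_apply hf (s2_dom hzf), hef, polar_smul_right, polar_comm Q e z, hze,
    QuadraticMap.map_smul]
  match_scalars <;> simp [hz]

include hf hzf hz in
theorem s2_z : sg Q f ((Q z)⁻¹ • z) z = z + (2 : F) • f := by
  rw [sg_apply hf (s2_dom hzf), hzf, polar_smul_right, polar_self]
  simp only [smul_eq_mul, nsmul_eq_mul, Nat.cast_ofNat, mul_zero, sub_zero, zero_smul]
  match_scalars <;> field_simp

include hf hzf in
theorem s2_f : sg Q f ((Q z)⁻¹ • z) f = f :=
  sg_fix hf (s2_dom hzf) (by rw [polar_self, hf]; simp)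
    (by rw [polar_smul_right, polar_comm Q f z, hzf, smul_zero])

include hf hzf in
theorem s2_perp {u : V} (huf : polar Q u f = 0) :
    sg Q f ((Q z)⁻¹ • z) u = u + ((Q z)⁻¹ * polar Q u z) • f := by
  rw [sg_apply hf (s2_dom hzf), huf, polar_smul_right]; simp

include he hf hef hze hzf hz

theorem nz_e : nzEl Q e f z e = -(Q z)⁻¹ • f := by
  simp only [nzEl, LinearEquiv.mul_apply, s1_e he hze, s2_e hf hef hze hzf hz, map_sub, map_smul,
    s1_z he hze, s1_f he hef hze hzf]
  match_scalars <;> (field_simp; try ring)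

theorem nz_f : nzEl Q e f z f = -(Q z) • e := by
  simp only [nzEl, LinearEquiv.mul_apply, s1_e he hze, s2_e hf hef hze hzf hz, s2_f hf hzf,
    s2_z hf hzf hz, map_sub, map_add, map_smul, s1_z he hze, s1_f he hef hze hzf]
  match_scalars <;> (field_simp; try ring)

theorem nz_perp {u : V} (hue : polar Q u e = 0) (huf : polar Q u f = 0) :
    nzEl Q e f z u = u - ((Q z)⁻¹ * polar Q u z) • z := by
  simp only [nzEl, LinearEquiv.mul_apply, s1_perp he hze hue, s2_perp hf hzf huf, map_add, map_sub,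
    map_smul, s1_e he hze, s2_e hf hef hze hzf hz, s1_z he hze, s1_f he hef hze hzf]
  match_scalars <;> (field_simp; try ring)

end Short

end CfsgLib.OrthTwoGen
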